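import Cfsg.Agent.ClassicalGeometry.AutPSL.Main
import Cfsg.Agent.StandardComponent.AltAut
import Cfsg.Agent.H890.B3Act
import Cfsg.Agent.H890.Y3Tools

/-!
No outer automorphisms for `L₂(7)` and `A₇` (helper890).
-/

set_option autoImplicit false
set_option linter.unusedSectionVars false

namespace Cfsg.Agent.H890.B3

open Cfsg.Geo Cfsg.Agent.H907 Cfsg.Agent.H906 Cfsg.Agent.H890.Y1
open Cfsg.Agent.ClassicalGeometry.AutPSL.Auto Cfsg.Agent.ClassicalGeometry.AutPSL.Root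
open scoped Matrix MatrixGroups

section L27

theorem cj_of_sq {K : Type*} [Field K] {C : GL (Fin 2) K} {c : K} (hc : c ≠ 0)
    (h : (C : Matrix (Fin 2) (Fin 2) K).det = c ^ 2) : ∃ a : SL(2, K), cj C = MulAut.conj a := by
  have hdet : (c⁻¹ • (C : Matrix (Fin 2) (Fin 2) K)).det = 1 := by
    rw [Matrix.det_smul, Fintype.card_fin, h, ← mul_pow, inv_mul_cancel₀ hc, one_pow]
  let a : SL(2, K) := ⟨c⁻¹ • (C : Matrix (Fin 2) (Fin 2) K), hdet⟩
  have ha : (a : Matrix (Fin 2) (Fin 2) K) = c⁻¹ • (C : Matrix (Fin 2) (Fin 2) K) := rfl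
  clear_value a
  refine ⟨a, MulEquiv.ext fun g => Subtype.ext ?_⟩
  have h1 : (C : Matrix (Fin 2) (Fin 2) K) = c • (a : Matrix (Fin 2) (Fin 2) K) := by
    rw [ha, smul_smul, mul_inv_cancel₀ hc, one_smul]
  have h2 : ((C⁻¹ : GL (Fin 2) K) : Matrix (Fin 2) (Fin 2) K) = c⁻¹ • ((a⁻¹ : SL(2, K)) : Matrix (Fin 2) (Fin 2) K) := by
    have h3 : (C : Matrix (Fin 2) (Fin 2) K) * (c⁻¹ • ((a⁻¹ : SL(2, K)) : Matrix (Fin 2) (Fin 2) K)) = 1 := by
      rw [h1, Matrix.mul_smul, Matrix.smul_mul, smul_smul, inv_mul_cancel₀ hc, one_smul,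
        ← Matrix.SpecialLinearGroup.coe_mul, mul_inv_cancel, Matrix.SpecialLinearGroup.coe_one]
    rw [Units.inv_eq_of_mul_eq_one_right h3]
  show (C : Matrix (Fin 2) (Fin 2) K) * (g : Matrix (Fin 2) (Fin 2) K) *
    ((C⁻¹ : GL (Fin 2) K) : Matrix (Fin 2) (Fin 2) K) = ((a * g * a⁻¹ : SL(2, K)) : Matrix (Fin 2) (Fin 2) K)
  rw [Matrix.SpecialLinearGroup.coe_mul, Matrix.SpecialLinearGroup.coe_mul, h2, h1, Matrix.smul_mul,
    Matrix.smul_mul, Matrix.mul_smul, smul_smul, mul_inv_cancel₀ hc, one_smul]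

theorem seven_prime : Fact (Nat.Prime 7) := ⟨by norm_num⟩

attribute [local instance] seven_prime

/-- `diag(3, 1)` -/
noncomputable def dB : GL (Fin 2) (ZMod 7) :=
  Matrix.GeneralLinearGroup.mkOfDetNeZero !![3, 0; 0, 1] (by rw [Matrix.det_fin_two_of]; decide)

/-- a transvection -/
def uB : SL(2, ZMod 7) := ⟨!![1, 1; 0, 1], by rw [Matrix.det_fin_two_of]; decide⟩

theorem dB_uB : cj dB uB = uB ^ 3 := by
  apply Subtype.ext
  rw [coe_cj]
  have h1 : ((uB ^ 3 : SL(2, ZMod 7)) : Matrix (Fin 2) (Fin 2) (ZMod 7)) = !![1, 3; 0, 1] := by decide +kernel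
  have h2 : (dB : Matrix (Fin 2) (Fin 2) (ZMod 7)) * (uB : Matrix (Fin 2) (Fin 2) (ZMod 7)) = !![1, 3; 0, 1] * (dB : Matrix (Fin 2) (Fin 2) (ZMod 7)) := by
    show (!![3, 0; 0, 1] : Matrix (Fin 2) (Fin 2) (ZMod 7)) * !![1, 1; 0, 1] = !![1, 3; 0, 1] * !![3, 0; 0, 1]
    decide +kernel
  rw [h1, h2, mul_assoc, ← Units.val_mul, mul_inv_cancel, Units.val_one, mul_one]

theorem aut_L27 (α : MulAut (Matrix.ProjectiveSpecialLinearGroup (Fin 2) (ZMod 7))) :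
    ∃ a, α = MulAut.conj a ∨ α = MulAut.conj a * lift (cj dB) := by
  obtain ⟨A, σ, hA⟩ := Cfsg.Agent.ClassicalGeometry.AutPSL.Main.surj_two 7 α
  have hσ : σ = 1 := RingEquiv.ext fun x => by
    have h1 : (σ : ZMod 7 →+* ZMod 7) = RingHom.id _ := Subsingleton.elim _ _
    exact congrArg (fun f : ZMod 7 →+* ZMod 7 => f x) h1
  rw [hσ, map_one, mul_one] at hA
  have hconj : ∀ a : SL(2, ZMod 7), lift (MulAut.conj a) = MulAut.conj (pr a) := by
    intro a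
    apply MulEquiv.ext
    intro x
    obtain ⟨x, rfl⟩ := Cfsg.Agent.ClassicalGeometry.AutPSL.Root.pr_surjective x
    rfl
  have key : ∀ d : ZMod 7, d ≠ 0 → (∃ c : ZMod 7, c ≠ 0 ∧ d = c ^ 2) ∨ (∃ c : ZMod 7, c ≠ 0 ∧ d = c ^ 2 * 3) := by
    decide
  have hd : (A : Matrix (Fin 2) (Fin 2) (ZMod 7)).det ≠ 0 :=
    ((Matrix.isUnit_iff_isUnit_det _).1 A.isUnit).ne_zero
  rcases key _ hd with ⟨c, hc, h⟩ | ⟨c, hc, h⟩
  · obtain ⟨a, ha⟩ := cj_of_sq hc h
    exact ⟨pr a, Or.inl (by rw [hA, ha, hconj])⟩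
  · have hdB : (dB : Matrix (Fin 2) (Fin 2) (ZMod 7)).det = 3 := by
      show (!![3, 0; 0, 1] : Matrix (Fin 2) (Fin 2) (ZMod 7)).det = 3
      rw [Matrix.det_fin_two_of]; decide
    obtain ⟨a, ha⟩ := cj_of_sq (C := A * dB⁻¹) hc (by
      have h3 : (A : Matrix (Fin 2) (Fin 2) (ZMod 7)) = ((A * dB⁻¹ : GL (Fin 2) (ZMod 7)) : Matrix (Fin 2) (Fin 2) (ZMod 7)) * dB := by
        rw [← Units.val_mul, inv_mul_cancel_right]
      rw [h3, Matrix.det_mul, hdB] at h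
      exact mul_right_cancel₀ (by decide) h)
    refine ⟨pr a, Or.inr ?_⟩
    rw [hA, ← hconj, ← ha, ← map_mul, ← map_mul, inv_mul_cancel_right]

variable {F : Type*} [Field F] {Hh P : Subgroup (GL (Fin 3) F)} {H : Type*} [Group H] {π : Hh →* H}

theorem orderOf_uB : orderOf (pr uB : Matrix.ProjectiveSpecialLinearGroup (Fin 2) (ZMod 7)) = 7 := by
  apply orderOf_eq_prime
  · rw [← map_pow]
    have : uB ^ 7 = 1 := by
      apply Subtype.ext
      decide +kernel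
    rw [this, map_one]
  · intro h
    have h1 : uB ∈ Subgroup.center SL(2, ZMod 7) := (QuotientGroup.eq_one_iff uB).1 h
    rw [Matrix.SpecialLinearGroup.mem_center_iff] at h1
    obtain ⟨c, -, hc⟩ := h1
    have h2 := congrFun (congrFun hc 0) 1
    revert h2
    simp [uB]

/-- **No outer automorphisms for `L₂(7)`**. -/
theorem seven_L (hπ : Pres Hh π) (hC : PreCore Hh P) (h7 : (7 : F) ≠ 0)
    (Φ : (P ⧸ (scalars (Fin 3) F).subgroupOf P) ≃* Matrix.ProjectiveSpecialLinearGroup (Fin 2) (ZMod 7)) :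
    Nonempty (H ≃* Matrix.ProjectiveSpecialLinearGroup (Fin 2) (ZMod 7)) := by
  refine equiv_of_inner hπ hC Φ fun h hh α hα => ?_
  obtain ⟨a, ha | ha⟩ := aut_L27 α
  · exact ⟨a, ha⟩
  · exfalso
    obtain ⟨k, hk⟩ := Cfsg.Agent.H906.pr_surjective Φ a⁻¹
    have h1 := (induces_conj (Φ := Φ) k).mul hα hC hh
    rw [hk, ha, ← mul_assoc, ← map_mul, inv_mul_cancel, map_one, one_mul] at h1
    rcases lemmaR' hC (r := 7) (by norm_num) (by norm_num) (by exact_mod_cast h7) orderOf_uB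
      (Hh.mul_mem (hC.le k.2) hh) h1 (k := 3) (by rw [lift_pr, dB_uB, map_pow]) with h2 | h2 <;>
    norm_num at h2

end L27

section A7

open Equiv Equiv.Perm Cfsg.Agent.H890.Y3

variable {F : Type*} [Field F] {Hh P : Subgroup (GL (Fin 3) F)} {H : Type*} [Group H] {π : Hh →* H}

def oddC : Perm (Fin 7) := c[1, 3, 2, 6, 4, 5]

theorem oddC_sign : sign oddC = -1 := by decide
theorem oddC_r7 : oddC * (r7 : Perm (Fin 7)) * oddC⁻¹ = (r7 : Perm (Fin 7)) ^ 3 := by decide +kernel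

/-- **No outer automorphisms for `A₇`**. -/
theorem seven_A (hπ : Pres Hh π) (hC : PreCore Hh P) (h7 : (7 : F) ≠ 0)
    (Φ : (P ⧸ (scalars (Fin 3) F).subgroupOf P) ≃* alternatingGroup (Fin 7)) :
    Nonempty (H ≃* alternatingGroup (Fin 7)) := by
  refine equiv_of_inner hπ hC Φ fun h hh α hα => ?_
  obtain ⟨σ, hσ⟩ := Cfsg.Agent.StandardComponent.AltAut.exists_conj (m := 5) le_rfl α
  rcases Int.units_eq_one_or (sign σ) with hs | hs
  · exact ⟨⟨σ, hs⟩, MulEquiv.ext fun x => Subtype.ext (hσ x)⟩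
  · exfalso
    have hmem : oddC * σ⁻¹ ∈ alternatingGroup (Fin 7) := by
      rw [mem_alternatingGroup, map_mul, map_inv, hs, oddC_sign]
      decide
    obtain ⟨k, hk⟩ := Cfsg.Agent.H906.pr_surjective Φ ⟨oddC * σ⁻¹, hmem⟩
    have h1 := (induces_conj (Φ := Φ) k).mul hα hC hh
    have hr7 : orderOf r7 = 7 := orderOf_eq_prime (hp := seven_prime) r7_pow (by decide +kernel)
    rcases lemmaR' hC (r := 7) (by norm_num) (by norm_num) (by exact_mod_cast h7) hr7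
      (Hh.mul_mem (hC.le k.2) hh) h1 (k := 3) (by
        apply Subtype.ext
        rw [MulAut.mul_apply, MulAut.conj_apply, hk]
        show oddC * σ⁻¹ * (α r7 : Perm (Fin 7)) * (oddC * σ⁻¹)⁻¹ = (r7 : Perm (Fin 7)) ^ 3
        rw [hσ, ← oddC_r7]
        group) with h2 | h2 <;>
    norm_num at h2

end A7

end Cfsg.Agent.H890.B3
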