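import Cfsg.Agent.H906.CoreEnd
import Cfsg.Agent.H890.B3Index
import Cfsg.Agent.H890.B3Alt
import Cfsg.Agent.H890.B3Six
import Cfsg.Agent.H890.B3Orth
import Cfsg.Agent.S0255

/-!
Bloom's list: the assembly (helper890).
-/

set_option autoImplicit false
set_option linter.unusedSectionVars false

namespace Cfsg.Agent.H890.B3

open Cfsg.Geo Cfsg.Agent.H907 Cfsg.Agent.H906
open scoped Matrix MatrixGroups

section Setup

variable {F : Type*} [Field F]

/-- The preimage in `GL₃` of a subgroup of `PSL₃`. -/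
theorem exists_pres (H : Subgroup (Matrix.ProjectiveSpecialLinearGroup (Fin 3) F)) :
    ∃ (Hh : Subgroup (GL (Fin 3) F)) (π : Hh →* H), Pres Hh π ∧ Hh ≤ specialLinear (Fin 3) F := by
  let mk := QuotientGroup.mk' (Subgroup.center SL(3, F))
  let H' : Subgroup SL(3, F) := H.comap mk
  have hinj : Function.Injective (Matrix.SpecialLinearGroup.toGL : SL(3, F) →* GL (Fin 3) F) := by
    intro a b hab
    apply Subtype.ext
    exact congrArg (fun g : GL (Fin 3) F => (g : Matrix (Fin 3) (Fin 3) F)) hab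
  let e := H'.equivMapOfInjective _ hinj
  let π : H'.map (Matrix.SpecialLinearGroup.toGL : SL(3, F) →* GL (Fin 3) F) →* H :=
    (mk.subgroupComap H).comp e.symm.toMonoidHom
  refine ⟨H'.map Matrix.SpecialLinearGroup.toGL, π, ⟨?_, ?_⟩, ?_⟩
  · exact (mk.subgroupComap_surjective_of_surjective H (QuotientGroup.mk'_surjective _)).comp e.symm.surjective
  · intro g
    obtain ⟨x, rfl⟩ := e.surjective g
    have h1 : π (e x) = mk.subgroupComap H x := by
      show mk.subgroupComap H (e.symm (e x)) = _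
      rw [e.symm_apply_apply]
    have h2 : ((e x : H'.map (Matrix.SpecialLinearGroup.toGL : SL(3, F) →* GL (Fin 3) F)) : GL (Fin 3) F) =
        Matrix.SpecialLinearGroup.toGL (x : SL(3, F)) := rfl
    have h3 : mk.subgroupComap H x = 1 ↔ (x : SL(3, F)) ∈ Subgroup.center SL(3, F) := by
      rw [← QuotientGroup.eq_one_iff]
      constructor
      · intro h
        exact congrArg Subtype.val h
      · intro h
        exact Subtype.ext h
    rw [h1, h3, h2, Matrix.SpecialLinearGroup.mem_center_iff, mem_scalars_iff]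
    constructor
    · rintro ⟨r, hr, hrx⟩
      have hr0 : r ≠ 0 := by
        rintro rfl
        rw [Fintype.card_fin, zero_pow (by norm_num)] at hr
        exact zero_ne_one hr
      refine ⟨Units.mk0 r hr0, ?_⟩
      show ((x : SL(3, F)) : Matrix (Fin 3) (Fin 3) F) = _
      rw [← hrx, Units.val_mk0, Matrix.smul_one_eq_diagonal]
      rfl
    · rintro ⟨c, hc⟩
      have hc' : ((x : SL(3, F)) : Matrix (Fin 3) (Fin 3) F) = (c : F) • (1 : Matrix (Fin 3) (Fin 3) F) := hc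
      refine ⟨c, ?_, ?_⟩
      · have h4 := (x : SL(3, F)).2
        rw [hc', Matrix.det_smul, Matrix.det_one, mul_one] at h4
        exact h4
      · rw [hc', Matrix.smul_one_eq_diagonal]
        rfl
  · rintro _ ⟨x, -, rfl⟩
    apply Units.ext
    exact x.2

end Setup

/-! ### Numbers -/

theorem mod_pow_mem (a n : ℕ) (s : Set ℕ) (hs : ∀ x ∈ s, ∀ y ∈ s, x * y % n ∈ s) (h1 : 1 % n ∈ s)
    (ha : a % n ∈ s) (k : ℕ) : a ^ k % n ∈ s := by
  induction k with
  | zero => rw [pow_zero]; exact h1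
  | succ k ih => rw [pow_succ, Nat.mul_mod]; exact hs _ ih _ ha

theorem pow_mod_ten {a : ℕ} (h : a % 10 = 1 ∨ a % 10 = 9) (k : ℕ) : a ^ k % 10 = 1 ∨ a ^ k % 10 = 9 := by
  have := mod_pow_mem a 10 {1, 9} (by
    rintro x (rfl | hx) y (rfl | hy)
    · simp
    · rw [Set.mem_singleton_iff.1 hy]; simp
    · rw [Set.mem_singleton_iff.1 hx]; simp
    · rw [Set.mem_singleton_iff.1 hx, Set.mem_singleton_iff.1 hy]; simp) (by simp) (by simpa using h) k
  simpa using this

theorem pow_mod_thirty {a : ℕ} (h : a % 30 = 1 ∨ a % 30 = 19) (k : ℕ) :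
    a ^ k % 30 = 1 ∨ a ^ k % 30 = 19 := by
  have := mod_pow_mem a 30 {1, 19} (by
    rintro x (rfl | hx) y (rfl | hy)
    · simp
    · rw [Set.mem_singleton_iff.1 hy]; simp
    · rw [Set.mem_singleton_iff.1 hx]; simp
    · rw [Set.mem_singleton_iff.1 hx, Set.mem_singleton_iff.1 hy]; simp) (by simp) (by simpa using h) k
  simpa using this

theorem pow_mod_seven {a : ℕ} (h : a % 7 = 1) (k : ℕ) : a ^ k % 7 = 1 := by
  rw [Nat.pow_mod, h, one_pow]
  norm_num

theorem cube_mod_seven {a : ℕ} (h : a % 7 = 1 ∨ a % 7 = 2 ∨ a % 7 = 4) : a ^ 3 % 7 = 1 := by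
  rcases h with h | h | h <;> rw [Nat.pow_mod, h]

theorem six_mod_seven {a : ℕ} (h : a % 7 = 3 ∨ a % 7 = 5 ∨ a % 7 = 6) : a ^ 6 % 7 = 1 := by
  rcases h with h | h | h <;> rw [Nat.pow_mod, h]

/-! ### The list -/

/-- Bloom's list. -/
def Bloom (H : Type*) [Group H] (p α : ℕ) : Prop :=
  (∃ (K : Type) (_ : Field K) (_ : Fintype K) (β : ℕ), Fintype.card K = p ^ β ∧ β ∣ α ∧ Nonempty (H ≃* Matrix.ProjectiveSpecialLinearGroup (Fin 3) K)) ∨
  (∃ (K : Type) (_ : Field K) (_ : Fintype K) (β : ℕ), Fintype.card K = p ^ (2 * β) ∧ 2 * β ∣ α ∧ Nonempty (H ≃* Cfsg.PSU 3 K (p ^ β))) ∨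
  (∃ (K : Type) (_ : Field K) (_ : Fintype K) (β : ℕ), Fintype.card K = p ^ β ∧ 3 ∣ p ^ β - 1 ∧ 3 * β ∣ α ∧ ∃ L : Subgroup H, L.index = 3 ∧ Nonempty (↥L ≃* Matrix.ProjectiveSpecialLinearGroup (Fin 3) K)) ∨
  (∃ (K : Type) (_ : Field K) (_ : Fintype K) (β : ℕ), Fintype.card K = p ^ (2 * β) ∧ 3 ∣ p ^ β + 1 ∧ 6 * β ∣ α ∧ ∃ L : Subgroup H, L.index = 3 ∧ Nonempty (↥L ≃* Cfsg.PSU 3 K (p ^ β))) ∨
  (∃ (K : Type) (_ : Field K) (_ : Fintype K) (β : ℕ), Fintype.card K = p ^ β ∧ β ∣ α ∧ p ^ β ≠ 3 ∧ (Nonempty (H ≃* Matrix.ProjectiveSpecialLinearGroup (Fin 2) K) ∨ Nonempty (H ≃* (GL (Fin 2) K ⧸ Subgroup.center (GL (Fin 2) K))))) ∨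
  ((p ^ α % 10 = 1 ∨ p ^ α % 10 = 9) ∧ ∃ (K : Type) (_ : Field K) (_ : Fintype K), Fintype.card K = 5 ∧ Nonempty (H ≃* Matrix.ProjectiveSpecialLinearGroup (Fin 2) K)) ∨
  ((p ^ α) ^ 3 % 7 = 1 ∧ ∃ (K : Type) (_ : Field K) (_ : Fintype K), Fintype.card K = 7 ∧ Nonempty (H ≃* Matrix.ProjectiveSpecialLinearGroup (Fin 2) K)) ∨
  (p = 5 ∧ Even α ∧ (Nonempty (H ≃* ↥(alternatingGroup (Fin 6))) ∨ Nonempty (H ≃* ↥(alternatingGroup (Fin 7))) ∨
    ∃ L : Subgroup H, L.index = 2 ∧ Nonempty (↥L ≃* ↥(alternatingGroup (Fin 6))))) ∨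
  ((p ^ α % 30 = 1 ∨ p ^ α % 30 = 19) ∧ Nonempty (H ≃* ↥(alternatingGroup (Fin 6))))

theorem bloom_of_dick {H : Type*} [Group H] {p α β : ℕ} (hβ : β ∣ α) (h : DickConcl H p β) : Bloom H p α := by
  rcases h with ⟨K, i1, i2, γ, hK, hγ, hne, h⟩ | ⟨h, h'⟩
  · exact Or.inr (Or.inr (Or.inr (Or.inr (Or.inl ⟨K, i1, i2, γ, hK, hγ.trans hβ, hne, h⟩))))
  · obtain ⟨k, rfl⟩ := hβ
    refine Or.inr (Or.inr (Or.inr (Or.inr (Or.inr (Or.inl ⟨?_, h'⟩)))))
    rw [pow_mul]
    exact pow_mod_ten h k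

theorem bloom {F : Type*} [Field F] [Fintype F] {p α : ℕ} [hpf : Fact p.Prime] (hp : p ≠ 2) (hα : 1 ≤ α)
    (hF : Fintype.card F = p ^ α) {H : Type*} [Group H] [Nontrivial H] (hN : NEA H)
    {Hh : Subgroup (GL (Fin 3) F)} {π : Hh →* H} (hπ : Pres Hh π) (hsl : Hh ≤ specialLinear (Fin 3) F) :
    Bloom H p α := by
  classical
  have hpp := hpf.out
  have hfinH : Finite H := Finite.of_surjective _ hπ.surj
  by_cases hirr : ActsIrreducibly (matrixSet Hh)
  swap
  · obtain ⟨f, hf⟩ := exists_embed hπ hN hirr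
    exact bloom_of_dick (dvd_refl α) (dickson hp hα hF hN f hf)
  obtain ⟨P, hP⟩ := exists_preCore hπ hN hirr
  obtain ⟨F₀, Hh₀, π₀, P₀, hπ₀, hC, hdet⟩ := exists_descent (by norm_num) hπ hsl hP
  have hC' := IsResidualCore.toPreCore hC
  have hcharF : CharP F p := by
    obtain ⟨r, hr⟩ := CharP.exists F
    obtain ⟨n, hrp, hn⟩ := FiniteField.card F r
    have h1 : r ∣ p := by
      have : r ∣ p ^ α := by rw [← hF, hn]; exact dvd_pow_self r n.pos.ne'
      exact hrp.dvd_of_dvd_pow this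
    rwa [(Nat.prime_dvd_prime_iff_eq hrp hpp).1 h1] at hr
  have hcharF₀ : CharP F₀ p := by
    refine ⟨fun n => ?_⟩
    rw [← CharP.cast_eq_zero_iff F p n]
    constructor
    · intro h
      have := congrArg (fun x : F₀ => (x : F)) h
      simpa using this
    · intro h
      apply Subtype.ext
      simpa using h
  have hfin₀ : Finite F₀ := inferInstance
  have := Fintype.ofFinite F₀
  obtain ⟨b, -, hb⟩ := FiniteField.card F₀ p
  obtain ⟨β, hβdef⟩ : ∃ β : ℕ, β = (b : ℕ) := ⟨_, rfl⟩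
  have hβ0 : 0 < β := by rw [hβdef]; exact b.pos
  rw [← hβdef] at hb
  have hcard₀ : Nat.card F₀ = p ^ β := by rw [Nat.card_eq_fintype_card, hb]
  obtain ⟨k, hk⟩ : ∃ k, k = Module.finrank F₀ F := ⟨_, rfl⟩
  have hαβ : α = β * k := by
    have h1 := Module.natCard_eq_pow_finrank (K := F₀) (V := F)
    rw [Nat.card_eq_fintype_card, hF, hcard₀, ← pow_mul, ← hk] at h1
    exact Nat.pow_right_injective hpp.two_le h1
  have hβα : β ∣ α := ⟨k, hαβ⟩
  have h2F₀ : (2 : F₀) ≠ 0 := by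
    intro h
    have h1 : ((2 : ℕ) : F₀) = 0 := by exact_mod_cast h
    have h3 := (CharP.cast_eq_zero_iff F₀ p 2).1 h1
    exact hp ((Nat.prime_dvd_prime_iff_eq hpp Nat.prime_two).1 h3)
  have hnum : ∀ r : ℕ, r.Prime → p ≠ r → (r : F₀) ≠ 0 := by
    intro r hr hpr h
    exact hpr ((Nat.prime_dvd_prime_iff_eq hpp hr).1 ((CharP.cast_eq_zero_iff F₀ p r).1 h))
  -- a standard field
  have hKcard : Nat.card (GaloisField p β) = p ^ β := GaloisField.card p β hβ0.ne'
  -- the exponent three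
  have hthree : ∀ g ∈ Hh₀, (¬ ∃ c : F₀, (g : Matrix (Fin 3) (Fin 3) F₀).det = c ^ 3) → 3 ∣ k := by
    intro g hg hn
    obtain ⟨c, hc⟩ := hdet g hg
    rw [hk]
    exact cube_descent ((Matrix.isUnit_iff_isUnit_det _).1 g.isUnit).ne_zero hc hn
  rcases core3 hC.absIrred hC.perfect hC.simple hC.nonabelian hC.no_subfield p with
    h | ⟨Q, hQ, hQf⟩ | ⟨K, iK, iKf, m, hKm, -, hm, hfix, hΦ⟩ | ⟨-, hp7, ⟨Φ⟩, h⟩ | ⟨hp3, ⟨Φ⟩, h⟩ | ⟨hp5, hc, -, ⟨Φ⟩⟩
  · -- linear
    let _ : Fintype (GaloisField p β) := Fintype.ofFinite _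
    have hKc : Fintype.card (GaloisField p β) = p ^ β := by rw [← Nat.card_eq_fintype_card, hKcard]
    obtain ⟨Φ⟩ := exists_psl_equiv (GaloisField p β) (by rw [hcard₀, hKc]) h
    rcases exists_index hπ₀ hC' (fun g _ hg => lin_cube h hg) with htop | ⟨hidx, h3, g, hg, hng⟩
    · left
      refine ⟨GaloisField p β, inferInstance, inferInstance, β, hKc, hβα, ?_⟩
      refine equiv_of_coreSub_top hπ₀ hC' Φ fun g hg => ?_
      rw [← mem_coreSub hπ₀ hC' ⟨g, hg⟩, htop]
      exact Subgroup.mem_top _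
    · right; right; left
      refine ⟨GaloisField p β, inferInstance, inferInstance, β, hKc, ?_, ?_, coreSub π₀ hC', hidx, ?_⟩
      · rwa [hcard₀] at h3
      · obtain ⟨j, hj⟩ := hthree g hg hng
        exact ⟨j, by rw [hαβ, hj]; ring⟩
      · obtain ⟨e⟩ := coreSub_equiv hπ₀ hC'
        exact ⟨e.trans Φ⟩
  · -- orthogonal
    have hle := Cfsg.Agent.H914.le_quadSimilarityGroup_of_fixes hC'.normal hC'.absIrred hQ hQf
    obtain ⟨f, hf⟩ := exists_embed_orth h2F₀ hπ₀ hQ hle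
    exact bloom_of_dick hβα (dickson hp hβ0 hb hN f hf)
  · -- unitary
    obtain ⟨γ, hγ⟩ : ∃ γ, m = p ^ γ := by
      have h1 : m ∣ p ^ β := by
        rw [← hcard₀, hm, sq]
        exact dvd_mul_right m m
      obtain ⟨γ, -, hγ⟩ := (Nat.dvd_prime_pow hpp).1 h1
      exact ⟨γ, hγ⟩
    subst hγ
    have hβγ : β = 2 * γ := by
      rw [hcard₀, ← pow_mul] at hm
      have := Nat.pow_right_injective hpp.two_le hm
      rw [this, mul_comm]
    have hKm' : Fintype.card K = p ^ (2 * γ) := by rw [hKm, ← pow_mul, mul_comm]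
    obtain ⟨hcube, hcop⟩ := uni_cube hm hC' hfix hKm hΦ
    obtain ⟨Φ⟩ := hΦ
    rcases exists_index hπ₀ hC' hcube with htop | ⟨hidx, h3, g, hg, hng⟩
    · right; left
      refine ⟨K, iK, iKf, γ, hKm', hβγ ▸ hβα, ?_⟩
      refine equiv_of_coreSub_top hπ₀ hC' Φ fun g hg => ?_
      rw [← mem_coreSub hπ₀ hC' ⟨g, hg⟩, htop]
      exact Subgroup.mem_top _
    · right; right; right; left
      refine ⟨K, iK, iKf, γ, hKm', ?_, ?_, coreSub π₀ hC', hidx, ?_⟩
      · have h4 := hcop g hg hng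
        rw [Nat.coprime_comm, Nat.Prime.coprime_iff_not_dvd Nat.prime_three, not_not] at h4
        exact h4
      · obtain ⟨j, hj⟩ := hthree g hg hng
        exact ⟨j, by rw [hαβ, hj, hβγ]; ring⟩
      · obtain ⟨e⟩ := coreSub_equiv hπ₀ hC'
        exact ⟨e.trans Φ⟩
  · -- L₂(7)
    obtain ⟨e⟩ := Cfsg.Agent.S0255.result (F := ZMod 7) (K := ZMod 2) (ZMod.card 7) (ZMod.card 2)
    have h7 := seven_L hπ₀ hC' (by exact_mod_cast hnum 7 (by norm_num) hp7) (Φ.trans e.symm)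
    refine Or.inr (Or.inr (Or.inr (Or.inr (Or.inr (Or.inr (Or.inl ⟨?_, ZMod 7, inferInstance, inferInstance,
      ZMod.card 7, h7⟩))))))
    rcases h with ⟨-, h⟩ | ⟨hc, h, -⟩
    · rw [← pow_mul, mul_comm, pow_mul]
      exact pow_mod_seven (cube_mod_seven h) α
    · have hβ2 : β = 2 := by
        rw [hcard₀] at hc
        exact Nat.pow_right_injective hpp.two_le hc
      rw [hαβ, hβ2, ← pow_mul, show 2 * k * 3 = 6 * k by ring, pow_mul]
      exact pow_mod_seven (six_mod_seven h) k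
  · -- A₆
    have h3F : (3 : F₀) ≠ 0 := by exact_mod_cast hnum 3 Nat.prime_three hp3
    by_cases hp5 : p = 5
    · refine Or.inr (Or.inr (Or.inr (Or.inr (Or.inr (Or.inr (Or.inr (Or.inl ⟨hp5, ?_, ?_⟩)))))))
      · have hc : Nat.card F₀ = p ^ 2 := by
          rcases h with ⟨-, h⟩ | ⟨h, -, -⟩ | ⟨h, -, -⟩
          · exfalso; subst hp5; omega
          · exact h
          · exact h
        have hβ2 : β = 2 := by
          rw [hcard₀] at hc
          exact Nat.pow_right_injective hpp.two_le hc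
        rw [hαβ, hβ2]
        exact even_two_mul k
      · rcases six_all hπ₀ hC' h3F Φ with h | h
        · exact Or.inl h
        · exact Or.inr (Or.inr h)
    · refine Or.inr (Or.inr (Or.inr (Or.inr (Or.inr (Or.inr (Or.inr (Or.inr ⟨?_, ?_⟩)))))))
      · have hodd : p % 2 = 1 := Nat.odd_iff.1 (hpp.odd_of_ne_two hp)
        have hp3' : p % 3 ≠ 0 := fun h0 => hp3 ((Nat.prime_dvd_prime_iff_eq Nat.prime_three hpp).1
          (Nat.dvd_of_mod_eq_zero h0)).symm
        have hsq : ∀ h : Nat.card F₀ = p ^ 2, p ^ 2 % 30 = 1 ∨ p ^ 2 % 30 = 19 →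
            p ^ α % 30 = 1 ∨ p ^ α % 30 = 19 := by
          intro hc h
          have hβ2 : β = 2 := by
            rw [hcard₀] at hc
            exact Nat.pow_right_injective hpp.two_le hc
          rw [hαβ, hβ2, pow_mul]
          exact pow_mod_thirty h k
        have hcases : ∀ r, p % 30 = r → p ^ 2 % 30 = r ^ 2 % 30 := by
          intro r hr
          rw [Nat.pow_mod, hr]
        rcases h with ⟨-, h⟩ | ⟨hc, h, -⟩ | ⟨hc, h, -⟩
        · exact pow_mod_thirty (by omega) α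
        · refine hsq hc ?_
          have h30 : p % 30 = 11 ∨ p % 30 = 29 := by omega
          rcases h30 with h30 | h30
          · left; exact (hcases _ h30).trans (by norm_num)
          · left; exact (hcases _ h30).trans (by norm_num)
        · refine hsq hc ?_
          have h30 : p % 30 = 7 ∨ p % 30 = 13 ∨ p % 30 = 17 ∨ p % 30 = 23 := by omega
          rcases h30 with h30 | h30 | h30 | h30
          · right; exact (hcases _ h30).trans (by norm_num)
          · right; exact (hcases _ h30).trans (by norm_num)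
          · right; exact (hcases _ h30).trans (by norm_num)
          · right; exact (hcases _ h30).trans (by norm_num)
      · exact six_ne_five hπ₀ hC' h3F (by exact_mod_cast hnum 5 (by norm_num) hp5) Φ
  · -- A₇
    refine Or.inr (Or.inr (Or.inr (Or.inr (Or.inr (Or.inr (Or.inr (Or.inl ⟨hp5, ?_, Or.inr (Or.inl ?_)⟩)))))))
    · have hβ2 : β = 2 := by
        rw [hcard₀] at hc
        exact Nat.pow_right_injective hpp.two_le hc
      rw [hαβ, hβ2]
      exact even_two_mul k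
    · exact seven_A hπ₀ hC' (by exact_mod_cast hnum 7 (by norm_num) (by omega)) Φ

end Cfsg.Agent.H890.B3
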