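import Mathlib

/-!
S5712 (helper890): subgroups of `S_6` of order divisible by `60`, different from `60` and `720`.
-/

set_option autoImplicit false

namespace Cfsg.Agent.H890.SixGroup

open Equiv.Perm

/-- A subgroup which is the stabiliser of a point of a faithful action as the full symmetric group. -/
theorem nonempty_equiv_of_map {G X : Type*} [Group G] [DecidableEq X] (e : G ≃* Equiv.Perm X) (x : X)
    (H : Subgroup G) (hH : ∀ g, g ∈ H ↔ e g x = x) :
    Nonempty (H ≃* Equiv.Perm {y : X // y ≠ x}) := by
  let φ : Equiv.Perm {y : X // y ≠ x} →* G :=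
    e.symm.toMonoidHom.comp (Equiv.Perm.ofSubtype (p := fun y => y ≠ x))
  have hφ : Function.Injective φ :=
    e.symm.injective.comp Equiv.Perm.ofSubtype_injective
  have hrange : φ.range = H := by
    ext g
    rw [hH]
    constructor
    · rintro ⟨σ, rfl⟩
      have h1 : e (φ σ) = Equiv.Perm.ofSubtype σ := e.apply_symm_apply _
      rw [h1]
      exact Equiv.Perm.ofSubtype_apply_of_not_mem σ (by simp)
    · intro h
      have h2 : ∀ y, y ≠ x ↔ e g y ≠ x := by
        intro y
        constructor
        · intro hy h3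
          apply hy
          apply (e g).injective
          rw [h3, h]
        · rintro hy rfl
          exact hy h
      refine ⟨(e g).subtypePerm (fun y => (h2 y).symm), ?_⟩
      show e.symm (Equiv.Perm.ofSubtype _) = g
      rw [Equiv.Perm.ofSubtype_subtypePerm]
      · exact e.symm_apply_apply g
      · intro y hy hyx
        rw [hyx, h] at hy
        exact hy rfl
  exact ⟨((MonoidHom.ofInjective hφ).trans (MulEquiv.subgroupCongr hrange)).symm⟩

theorem card_perm6 : Nat.card (Equiv.Perm (Fin 6)) = 720 := by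
  rw [Nat.card_eq_fintype_card, Fintype.card_perm, Fintype.card_fin]
  rfl

theorem main (H : Subgroup (Equiv.Perm (Fin 6))) (h60 : 60 ∣ Nat.card H) (hne : Nat.card H ≠ 60)
    (htop : H ≠ ⊤) :
    Nonempty (H ≃* alternatingGroup (Fin 6)) ∨ Nonempty (H ≃* Equiv.Perm (Fin 5)) := by
  have hmul := H.card_mul_index
  rw [card_perm6] at hmul
  obtain ⟨k, hk⟩ := h60
  rw [hk] at hmul
  have h12 : k * H.index = 12 := by
    have : 60 * (k * H.index) = 60 * 12 := by rw [← mul_assoc, hmul]
    exact Nat.eq_of_mul_eq_mul_left (by norm_num) this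
  have hk1 : k ≠ 1 := by
    rintro rfl
    exact hne (by rw [hk])
  have hi1 : H.index ≠ 1 := by
    intro h
    exact htop (Subgroup.index_eq_one.1 h)
  by_cases hcore : H.normalCore = ⊥
  · right
    -- faithful action on the cosets
    rw [Subgroup.normalCore_eq_ker] at hcore
    have hinj : Function.Injective (MulAction.toPermHom (Equiv.Perm (Fin 6)) (Equiv.Perm (Fin 6) ⧸ H)) :=
      (MonoidHom.ker_eq_bot_iff _).1 hcore
    have hcardle : Nat.card (Equiv.Perm (Fin 6)) ≤
        Nat.card (Equiv.Perm (Equiv.Perm (Fin 6) ⧸ H)) := Nat.card_le_card_of_injective _ hinj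
    have hcq : Nat.card (Equiv.Perm (Fin 6) ⧸ H) = H.index := rfl
    rw [card_perm6, Nat.card_perm, hcq] at hcardle
    have hi6 : H.index = 6 := by
      have h6 : ¬ H.index < 6 := by
        intro hlt
        have : (H.index).factorial ≤ (5).factorial := Nat.factorial_le (by omega)
        have h5 : (5).factorial = 120 := rfl
        omega
      have hdvd : H.index ∣ 12 := ⟨k, by rw [← h12, mul_comm]⟩
      have hle : H.index ≤ 12 := Nat.le_of_dvd (by norm_num) hdvd
      have h12' : H.index ≠ 12 := by
        intro h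
        rw [h] at h12
        omega
      interval_cases H.index <;> first | rfl | omega
    have hcard2 : Nat.card (Equiv.Perm (Equiv.Perm (Fin 6) ⧸ H)) = 720 := by
      rw [Nat.card_perm, hcq, hi6]; rfl
    have hbij : Function.Bijective
        (MulAction.toPermHom (Equiv.Perm (Fin 6)) (Equiv.Perm (Fin 6) ⧸ H)) := by
      refine (Nat.bijective_iff_injective_and_card _).2 ⟨hinj, ?_⟩
      rw [card_perm6, hcard2]
    classical
    let e := MulEquiv.ofBijective _ hbij
    obtain ⟨f⟩ := nonempty_equiv_of_map e ((1 : Equiv.Perm (Fin 6)) : Equiv.Perm (Fin 6) ⧸ H) H (by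
      intro g
      have h1 : MulAction.stabilizer (Equiv.Perm (Fin 6))
        ((1 : Equiv.Perm (Fin 6)) : Equiv.Perm (Fin 6) ⧸ H) = H := MulAction.stabilizer_quotient H
      conv_lhs => rw [← h1]
      rfl)
    have : Nat.card {y : Equiv.Perm (Fin 6) ⧸ H // y ≠ ((1 : Equiv.Perm (Fin 6)) : Equiv.Perm (Fin 6) ⧸ H)}
        = 5 := by
      have := Fintype.ofFinite (Equiv.Perm (Fin 6) ⧸ H)
      rw [Nat.card_eq_fintype_card, Fintype.card_subtype_compl, Fintype.card_subtype_eq,
        ← Nat.card_eq_fintype_card, hcq, hi6]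
    have e5 : {y : Equiv.Perm (Fin 6) ⧸ H // y ≠ ((1 : Equiv.Perm (Fin 6)) : Equiv.Perm (Fin 6) ⧸ H)}
        ≃ Fin 5 := Finite.equivFinOfCardEq this
    exact ⟨f.trans e5.permCongrHom⟩
  · left
    have hle : alternatingGroup (Fin 6) ≤ H :=
      (Equiv.Perm.alternatingGroup_le_of_normal (by simp)
        ((Subgroup.nontrivial_iff_ne_bot _).2 hcore)).trans (Subgroup.normalCore_le H)
    have hdvd : H.index ∣ (alternatingGroup (Fin 6)).index := Subgroup.index_dvd_of_le hle
    rw [alternatingGroup.index_eq_two] at hdvd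
    have h2 : H.index = 2 := by
      rcases (Nat.dvd_prime Nat.prime_two).1 hdvd with h | h
      · exact absurd h hi1
      · exact h
    rw [Equiv.Perm.eq_alternatingGroup_of_index_eq_two h2]
    exact ⟨MulEquiv.refl _⟩

end Cfsg.Agent.H890.SixGroup
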