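import Cfsg.Agent.H890.SpCore
import Cfsg.Agent.LieClassical.OrthCore

/-!
S5712 (helper890), first case: every hyperbolic line meets `A` in at most two points.  Then the function
`c` is (the restriction of) a quadratic form `Q` polarising to `B`, `A` is the set of singular vectors,
and `E Q ≤ L ≤ O Q`.
-/

set_option autoImplicit false

namespace Cfsg.Agent.H890.SpCore

open QuadraticMap Cfsg.Agent.LieClassical.OrthCore

variable {F V : Type*} [Field F] [AddCommGroup V] [Module F V]

/-- The functional equation. -/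
theorem hua (h2 : (2 : F) = 0) {φ ψ : F → F} (hφ : ∀ x y, φ (x + y) = φ x + φ y)
    (hψ : ∀ x y, ψ (x + y) = ψ x + ψ y) (bφ : Function.Bijective φ) (bψ : Function.Bijective ψ)
    (h : ∀ m, m ≠ 0 → ψ (m * (φ m)⁻¹) = (φ m)⁻¹) (m : F) : φ m = m ^ 2 * φ 1 := by
  have hneg : ∀ x : F, x + x = 0 := fun x => by linear_combination x * h2
  have φ0 : φ 0 = 0 := by
    have := hφ 0 0
    rw [add_zero] at this
    exact left_eq_add.1 this
  choose α hα using bφ.2
  choose β hβ using bψ.2
  have hα' : ∀ x, α (φ x) = x := fun x => bφ.1 (hα _)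
  have hβ' : ∀ x, β (ψ x) = x := fun x => bψ.1 (hβ _)
  have hαadd : ∀ x y, α (x + y) = α x + α y := by
    intro x y
    apply bφ.1
    rw [hφ, hα, hα, hα]
  have hβadd : ∀ x y, β (x + y) = β x + β y := by
    intro x y
    apply bψ.1
    rw [hψ, hβ, hβ, hβ]
  have hne : ∀ t, t ≠ 0 → α t ≠ 0 := by
    intro t ht h0
    apply ht
    rw [← hα t, h0, φ0]
  have key : ∀ t, t ≠ 0 → t * β t⁻¹ = α t := by
    intro t ht
    have h1 := h (α t) (hne t ht)
    rw [hα] at h1
    rw [← h1, hβ', mul_comm (α t), ← mul_assoc, mul_inv_cancel₀ ht, one_mul]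
  have hsq : ∀ t, α (t ^ 2) = t * α 1 := by
    intro t
    by_cases ht0 : t = 0
    · subst ht0
      have : α 0 = 0 := by
        have := hα' 0
        rwa [φ0] at this
      rw [zero_pow two_ne_zero, this, zero_mul]
    by_cases ht1 : t = 1
    · subst ht1; simp
    have ht1' : 1 + t ≠ 0 := by
      intro h0
      apply ht1
      linear_combination h0 - h2
    have hprod : t + t ^ 2 ≠ 0 := by
      have : t + t ^ 2 = t * (1 + t) := by ring
      rw [this]
      exact mul_ne_zero ht0 ht1'
    have e1 : (t + t ^ 2)⁻¹ = t⁻¹ + (1 + t)⁻¹ := by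
      have : t + t ^ 2 = t * (1 + t) := by ring
      rw [this]
      field_simp
      linear_combination (-t) * h2
    have k1 := key _ hprod
    rw [e1, hβadd] at k1
    have k2 := key _ ht0
    have k3 := key _ ht1'
    rw [hαadd] at k1 k3
    have k4 : (t + t ^ 2) * (β t⁻¹ + β (1 + t)⁻¹) = (1 + t) * (t * β t⁻¹) +
      t * ((1 + t) * β (1 + t)⁻¹) := by ring
    rw [k4, k2, k3] at k1
    linear_combination -k1 + (t * α t) * h2
  have hκ : α 1 ≠ 0 := hne 1 one_ne_zero
  have h3 : ∀ t, φ (t * α 1) = t ^ 2 := fun t => by rw [← hsq, hα]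
  have h4 : ∀ m, φ m = (m * (α 1)⁻¹) ^ 2 := fun m => by
    rw [← h3, mul_assoc, inv_mul_cancel₀ hκ, mul_one]
  rw [h4 m, h4 1]
  ring

namespace Ctx

variable (S : Ctx F V)

/-- First case: every hyperbolic line meets `A` in at most two points. -/
structure CaseOne (a b : V) : Prop where
  ha : S.A a
  hb : S.A b
  hab : S.B a b = 1
  one : ∀ (x y : V) (t : F), S.A x → S.A y → S.B x y = 1 → S.A (y + t • x) → t = 0

variable {S} {a b : V}

theorem CaseOne.symm (h : S.CaseOne a b) : S.CaseOne b a :=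
  ⟨h.hb, h.ha, by rw [S.symm, h.hab], h.one⟩

theorem CaseOne.hba (h : S.CaseOne a b) : S.B b a = 1 := by rw [S.symm, h.hab]

theorem CaseOne.uniq (h : S.CaseOne a b) {w : V} (hw : S.B a w = 0) {c c' : F}
    (hc : S.Has a w c) (hc' : S.Has a w c') : c = c' := by
  have h1 := hc.diff S hw hc'
  have h2 := h.hb.move S h1
  rw [map_zero, h.hba] at h2
  have e : b + (1 : F) • (0 : V) + (0 : F) • a + ((c + c') * 1) • a = b + (c + c') • a := by module
  rw [e] at h2
  exact S.eq_of_add_zero (h.one a b _ h.ha h.hb h.hab h2)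

open Classical in
/-- the function `c` -/
noncomputable def cf (S : Ctx F V) (a w : V) : F :=
  if h : ∃ c, S.Has a w c then h.choose else 0

theorem cf_spec (h : S.A a) {w : V} (hw : S.B a w = 0) : S.Has a w (cf S a w) := by
  have h1 := h.2 w hw
  rw [cf, dif_pos h1]
  exact h1.choose_spec

theorem CaseOne.cf_eq (h : S.CaseOne a b) {w : V} (hw : S.B a w = 0) {c : F}
    (hc : S.Has a w c) : cf S a w = c := h.uniq hw (cf_spec h.ha hw) hc

theorem CaseOne.cf_add (h : S.CaseOne a b) {w w' : V} (hw : S.B a w = 0) (hw' : S.B a w' = 0) :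
    cf S a (w + w') = cf S a w + cf S a w' + S.B w w' :=
  h.cf_eq (by rw [S.add_right, hw, hw', add_zero])
    ((cf_spec h.ha hw).mul S hw hw' (cf_spec h.ha hw'))

theorem CaseOne.cf_add_smul (h : S.CaseOne a b) {w : V} (hw : S.B a w = 0) (l : F) :
    cf S a (w + l • a) = cf S a w :=
  h.cf_eq (by rw [S.add_right, S.smul_right, S.alt, hw, mul_zero, add_zero])
    ((cf_spec h.ha hw).add_smul S l)

theorem CaseOne.cf_zero (h : S.CaseOne a b) : cf S a 0 = 0 :=
  h.cf_eq (map_zero _) (Has.zero S a)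

/-- the quadratic form -/
noncomputable def qf (S : Ctx F V) (a b v : V) : F :=
  cf S a (v + S.B v a • b) + S.B v a * S.B b v

theorem CaseOne.qf_perp (h : S.CaseOne a b) {v : V} (hv : S.B a v = 0) :
    qf S a b v = cf S a v := by
  rw [qf, S.symm v a, hv, zero_smul, add_zero, zero_mul, add_zero]

theorem CaseOne.comp_perp (h : S.CaseOne a b) (v : V) : S.B a (v + S.B v a • b) = 0 := by
  rw [S.add_right, S.smul_right, h.hab, S.symm v a, mul_one, S.add_self]

theorem CaseOne.qf_add (h : S.CaseOne a b) (v v' : V) :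
    qf S a b (v + v') = qf S a b v + qf S a b v' + S.B v v' := by
  have e : v + v' + S.B (v + v') a • b = (v + S.B v a • b) + (v' + S.B v' a • b) := by
    rw [S.add_left]; module
  rw [qf, qf, qf, e, h.cf_add (h.comp_perp v) (h.comp_perp v')]
  simp only [S.add_left, S.add_right, S.smul_left, S.smul_right, S.alt]
  rw [S.symm v b]
  linear_combination (S.B v a * S.B b v' + S.B v' a * S.B b v) * S.two

theorem CaseOne.move (h : S.CaseOne a b) {v : V} (hv : S.B a v = 1) :
    S.A (v + qf S a b v • a) := by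
  have hva : S.B v a = 1 := by rw [S.symm, hv]
  have h0 := h.comp_perp v
  rw [hva, one_smul] at h0
  have h1 := h.hb.move S (cf_spec h.ha h0)
  rw [h.hba, S.add_right, S.alt, add_zero] at h1
  have e : b + (1 : F) • (v + b) + S.B b v • a + (cf S a (v + b) * 1) • a =
      v + qf S a b v • a + (b + b) := by
    have e0 : qf S a b v = cf S a (v + b) + 1 * S.B b v := by rw [qf, hva, one_smul]
    rw [e0]; module
  rwa [e, S.vadd_self, add_zero] at h1

theorem CaseOne.A_iff_one (h : S.CaseOne a b) {v : V} (hv : S.B a v = 1) :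
    S.A v ↔ qf S a b v = 0 := by
  have h1 := h.move hv
  constructor
  · intro h2
    exact h.one a v _ h.ha h2 hv h1
  · intro h2
    rwa [h2, zero_smul, add_zero] at h1

theorem CaseOne.A_iff_perp (h : S.CaseOne a b) {x : V} (hx : x ≠ 0) (hax : S.B a x = 0) :
    S.A x ↔ cf S a x = 0 := by
  by_cases hxa : ∃ l : F, x = l • a
  · obtain ⟨l, rfl⟩ := hxa
    have hl : l ≠ 0 := by
      rintro rfl
      exact hx (zero_smul _ _)
    refine ⟨fun _ => ?_, fun _ => h.ha.smul S hl⟩
    have := h.cf_add_smul (w := 0) (by rw [map_zero]) l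
    rwa [zero_add, h.cf_zero] at this
  push Not at hxa
  obtain ⟨z0, hz1, hz2⟩ := S.exists_eq_two h.ha.1 hxa 1 0
  have hz := h.move hz1
  set z := z0 + qf S a b z0 • a with hzdef
  have haz : S.B a z = 1 := by rw [hzdef, S.add_right, S.smul_right, S.alt, hz1]; ring
  have hxz : S.B x z = 0 := by
    rw [hzdef, S.add_right, S.smul_right, hz2, S.symm x a, hax]; ring
  have hzx : S.B z x = 0 := by rw [S.symm, hxz]
  have hazx : S.B a (z + x) = 1 := by rw [S.add_right, haz, hax, add_zero]
  have hqz : qf S a b z = 0 := (h.A_iff_one haz).1 hz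
  have hq := h.qf_add z x
  rw [hqz, hzx, h.qf_perp hax, zero_add, add_zero] at hq
  have hind : ∀ l : F, z ≠ l • x := by
    intro l hl
    have h1 := haz
    rw [hl, S.smul_right, hax, mul_zero] at h1
    exact zero_ne_one h1
  constructor
  · intro hA
    have h1 := hz.add_of_perp S hA hzx hind 1
    rw [one_smul] at h1
    rw [← hq]
    exact (h.A_iff_one hazx).1 h1
  · intro hc
    rw [hc] at hq
    have h1 : S.A (z + x) := (h.A_iff_one hazx).2 hq
    have h2 : S.B (z + x) z = 0 := by rw [S.add_left, S.alt, hxz, add_zero]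
    have h3 : ∀ l : F, z + x ≠ l • z := by
      intro l hl
      have h4 : S.B a (z + x) = l := by rw [hl, S.smul_right, haz, mul_one]
      rw [hazx] at h4
      apply hx
      rw [← h4, one_smul] at hl
      exact left_eq_add.1 hl.symm
    have h4 := h1.add_of_perp S hz h2 h3 1
    have e : z + x + (1 : F) • z = x + (z + z) := by module
    rwa [e, S.vadd_self, add_zero] at h4

/-- Homogeneity of `c` on the space orthogonal to `a` and `b`. -/
theorem CaseOne.cf_smul_aux [Finite F] (h : S.CaseOne a b) {w : V} (haw : S.B a w = 0)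
    (hbw : S.B b w = 0) (m : F) : cf S a (m • w) = m ^ 2 * cf S a w := by
  by_cases hw : w = 0
  · subst hw
    rw [smul_zero, h.cf_zero, mul_zero]
  have ham : ∀ m : F, S.B a (m • w) = 0 := fun m => by rw [S.smul_right, haw, mul_zero]
  have hbm : ∀ m : F, S.B b (m • w) = 0 := fun m => by rw [S.smul_right, hbw, mul_zero]
  by_cases hA : S.A w
  · have h0 : cf S a w = 0 := (h.A_iff_perp hw haw).1 hA
    rw [h0, mul_zero]
    by_cases hm : m = 0
    · rw [hm, zero_smul, h.cf_zero]
    · exact (h.A_iff_perp (smul_ne_zero hm hw) (ham m)).1 (hA.smul S hm)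
  have hadd : ∀ x y : F, cf S a ((x + y) • w) = cf S a (x • w) + cf S a (y • w) := by
    intro x y
    rw [add_smul, h.cf_add (ham x) (ham y), S.smul_left, S.smul_right, S.alt]
    ring
  have hadd' : ∀ x y : F, cf S b ((x + y) • w) = cf S b (x • w) + cf S b (y • w) := by
    intro x y
    rw [add_smul, h.symm.cf_add (hbm x) (hbm y), S.smul_left, S.smul_right, S.alt]
    ring
  have hne : ∀ m : F, m ≠ 0 → cf S a (m • w) ≠ 0 := by
    intro m hm h0
    apply hA
    rw [← A.smul_iff S hm]
    exact (h.A_iff_perp (smul_ne_zero hm hw) (ham m)).2 h0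
  have hne' : ∀ m : F, m ≠ 0 → cf S b (m • w) ≠ 0 := by
    intro m hm h0
    apply hA
    rw [← A.smul_iff S hm]
    exact (h.symm.A_iff_perp (smul_ne_zero hm hw) (hbm m)).2 h0
  have hinj : Function.Injective (fun m : F => cf S a (m • w)) := by
    intro x y hxy
    by_contra hne2
    refine hne (x + y) (fun h0 => hne2 (S.eq_of_add_zero h0)) ?_
    rw [hadd]
    show (fun m : F => cf S a (m • w)) x + (fun m : F => cf S a (m • w)) y = 0
    rw [hxy, S.add_self]
  have hinj' : Function.Injective (fun m : F => cf S b (m • w)) := by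
    intro x y hxy
    by_contra hne2
    refine hne' (x + y) (fun h0 => hne2 (S.eq_of_add_zero h0)) ?_
    rw [hadd']
    show (fun m : F => cf S b (m • w)) x + (fun m : F => cf S b (m • w)) y = 0
    rw [hxy, S.add_self]
  have main := hua (φ := fun m : F => cf S a (m • w)) (ψ := fun m : F => cf S b (m • w)) S.two
    hadd hadd' (Finite.injective_iff_bijective.1 hinj) (Finite.injective_iff_bijective.1 hinj') ?_ m
  · simpa using main
  · intro m hm
    show cf S b ((m * (cf S a (m • w))⁻¹) • w) = (cf S a (m • w))⁻¹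
    set c := cf S a (m • w) with hc
    have hc0 : c ≠ 0 := hne m hm
    have h1 := h.hb.move S (cf_spec h.ha (ham m))
    rw [h.hba, hbm] at h1
    have h2 := h1.smul S (inv_ne_zero hc0)
    have e2 : c⁻¹ • (b + (1 : F) • m • w + (0 : F) • a + (cf S a (m • w) * 1) • a) =
        c⁻¹ • b + (m * c⁻¹) • w + (c⁻¹ * c) • a := by
      rw [← hc]; module
    rw [e2, inv_mul_cancel₀ hc0, one_smul] at h2
    have h3 := h.ha.move S (cf_spec h.hb (hbm (m * c⁻¹)))
    rw [h.hab, ham] at h3
    have e3 : a + (1 : F) • (m * c⁻¹) • w + (0 : F) • b + (cf S b ((m * c⁻¹) • w) * 1) • b =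
        cf S b ((m * c⁻¹) • w) • b + (m * c⁻¹) • w + a := by module
    rw [e3] at h3
    have h4 : S.B b (c⁻¹ • b + (m * c⁻¹) • w + a) = 1 := by
      rw [S.add_right, S.add_right, S.smul_right, S.smul_right, S.alt, hbw, h.hba]; ring
    have h5 := h.one b _ (c⁻¹ + cf S b ((m * c⁻¹) • w)) h.hb h2 h4 (by
      have e5 : c⁻¹ • b + (m * c⁻¹) • w + a + (c⁻¹ + cf S b ((m * c⁻¹) • w)) • b =
        (c⁻¹ • b + c⁻¹ • b) + (cf S b ((m * c⁻¹) • w) • b + (m * c⁻¹) • w + a) := by module
      rw [e5, S.vadd_self, zero_add]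
      exact h3)
    exact (S.eq_of_add_zero h5).symm

theorem CaseOne.cf_smul [Finite F] (h : S.CaseOne a b) {w : V} (haw : S.B a w = 0) (m : F) :
    cf S a (m • w) = m ^ 2 * cf S a w := by
  have h1 : S.B a (w + S.B b w • a) = 0 := by
    rw [S.add_right, S.smul_right, S.alt, haw]; ring
  have h2 : S.B b (w + S.B b w • a) = 0 := by
    rw [S.add_right, S.smul_right, h.hba, mul_one, S.add_self]
  have h3 := h.cf_smul_aux h1 h2 m
  rw [h.cf_add_smul haw] at h3
  rw [← h3, smul_add, smul_smul, h.cf_add_smul (by rw [S.smul_right, haw, mul_zero])]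

theorem CaseOne.qf_smul [Finite F] (h : S.CaseOne a b) (m : F) (v : V) :
    qf S a b (m • v) = m * m * qf S a b v := by
  have e : m • v + S.B (m • v) a • b = m • (v + S.B v a • b) := by
    rw [S.smul_left]; module
  rw [qf, qf, e, h.cf_smul (h.comp_perp v), S.smul_left, S.smul_right]
  ring

/-- the quadratic form -/
noncomputable def CaseOne.quad [Finite F] (h : S.CaseOne a b) : QuadraticForm F V where
  toFun := qf S a b
  toFun_smul m v := by rw [h.qf_smul, smul_eq_mul]
  exists_companion' := ⟨S.B, fun v v' => h.qf_add v v'⟩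

theorem CaseOne.quad_apply [Finite F] (h : S.CaseOne a b) (v : V) : h.quad v = qf S a b v := rfl

theorem CaseOne.polar_quad [Finite F] (h : S.CaseOne a b) (u v : V) :
    polar h.quad u v = S.B u v := by
  rw [polar, h.quad_apply, h.quad_apply, h.quad_apply, h.qf_add]
  ring

theorem CaseOne.A_iff [Finite F] (h : S.CaseOne a b) {v : V} (hv : v ≠ 0) :
    S.A v ↔ h.quad v = 0 := by
  rw [h.quad_apply]
  by_cases h0 : S.B a v = 0
  · rw [h.qf_perp h0]
    exact h.A_iff_perp hv h0
  · have h1 : S.B a ((S.B a v)⁻¹ • v) = 1 := by rw [S.smul_right, inv_mul_cancel₀ h0]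
    rw [← A.smul_iff S (inv_ne_zero h0), h.A_iff_one h1, h.qf_smul]
    simp [h0]

theorem CaseOne.le_O [Finite F] (h : S.CaseOne a b) : S.L ≤ O h.quad := by
  intro g hg
  rw [mem_O]
  have hD : ∀ v v', (h.quad (g (v + v')) + h.quad (v + v')) =
      (h.quad (g v) + h.quad v) + (h.quad (g v') + h.quad v') := by
    intro v v'
    rw [map_add, Q_add, Q_add v v', h.polar_quad, h.polar_quad, S.inv g hg]
    linear_combination (S.B v v') * S.two
  have hA : ∀ v, S.A v → h.quad (g v) + h.quad v = 0 := by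
    intro v hv
    rw [(h.A_iff hv.1).1 hv, (h.A_iff (hv.map S hg).1).1 (hv.map S hg), add_zero]
  have hA' : ∀ (v : V) (l : F), S.A v → h.quad (g (l • v)) + h.quad (l • v) = 0 := by
    intro v l hv
    by_cases hl : l = 0
    · subst hl; simp
    · exact hA _ (hv.smul S hl)
  have h1 : ∀ v, S.B a v = 1 → h.quad (g v) + h.quad v = 0 := by
    intro v hv
    have h2 := hA _ (h.move hv)
    rw [hD, hA' a _ h.ha, add_zero] at h2
    exact h2
  have h3 : ∀ v, S.B a v ≠ 0 → h.quad (g v) + h.quad v = 0 := by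
    intro v hv
    have h2 := h1 ((S.B a v)⁻¹ • v) (by rw [S.smul_right, inv_mul_cancel₀ hv])
    rw [map_smul, QuadraticMap.map_smul, QuadraticMap.map_smul, ← smul_add] at h2
    rcases smul_eq_zero.1 h2 with h4 | h4
    · exact absurd h4 (mul_ne_zero (inv_ne_zero hv) (inv_ne_zero hv))
    · exact h4
  intro v
  apply S.eq_of_add_zero
  by_cases hv : S.B a v = 0
  · have h4 := h3 (v + b) (by rw [S.add_right, hv, h.hab, zero_add]; exact one_ne_zero)
    rw [hD, hA b h.hb, add_zero] at h4
    exact h4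
  · exact h3 v hv

theorem CaseOne.nondeg [Finite F] (h : S.CaseOne a b) : Nondeg h.quad := by
  intro x hx
  apply S.nd
  intro y
  rw [← h.polar_quad, hx]

theorem CaseOne.siegel_mem [Finite F] (h : S.CaseOne a b) {u w : V} (hu : h.quad u = 0)
    (hw : polar h.quad u w = 0) : siegel h.quad u w hu hw ∈ S.L := by
  by_cases hu0 : u = 0
  · subst hu0
    have : siegel h.quad 0 w hu hw = 1 := by
      ext v
      rw [siegel_apply]
      simp
    rw [this]
    exact S.L.one_mem
  have hAu : S.A u := (h.A_iff hu0).2 hu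
  rw [h.polar_quad] at hw
  have hwu : S.B w u = 0 := by rw [S.symm, hw]
  obtain ⟨c, g, hg, hgv⟩ := hAu.2 w hw
  obtain ⟨v, hv⟩ := S.exists_eq hu0 1
  have hvu : S.B v u = 1 := by rw [S.symm, hv]
  have hQ := mem_O.1 (h.le_O hg) v
  have e1 : g v = v + (w + (S.B v w + c) • u) := by
    rw [hgv, hvu]; module
  rw [e1, Q_add, Q_add, QuadraticMap.map_smul, hu, h.polar_quad, h.polar_quad, S.smul_right, hwu,
    S.add_right, S.smul_right, hvu] at hQ
  have hc : c = h.quad w := by
    apply S.eq_of_add_zero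
    have hQ2 : h.quad v + (h.quad w + 0 + 0) + (S.B v w + (S.B v w + c)) = h.quad v := by
      simpa using hQ
    linear_combination hQ2 - (S.B v w) * S.two
  have : siegel h.quad u w hu (by rw [h.polar_quad, hw]) = g := by
    ext v
    rw [siegel_apply, hgv, h.polar_quad, h.polar_quad, S.symm v u, S.symm v w, hc]
    have e : ∀ x : F, -x = x := S.neg_eq
    rw [sub_eq_add_neg, sub_eq_add_neg, ← neg_smul, ← neg_smul, e, e]
  rw [this]
  exact hg

/-- **First case: the conclusion.** -/
theorem CaseOne.result [Finite F] (h : S.CaseOne a b) :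
    ∃ Q : QuadraticForm F V, (∀ u v, polar Q u v = S.B u v) ∧ E Q ≤ S.L ∧ S.L ≤ O Q ∧
      Q a = 0 ∧ Q b = 0 := by
  refine ⟨h.quad, h.polar_quad, ?_, h.le_O, (h.A_iff h.ha.1).1 h.ha, (h.A_iff h.hb.1).1 h.hb⟩
  rw [E, Subgroup.closure_le]
  rintro _ ⟨u, w, hu, hw, rfl⟩
  exact h.siegel_mem hu hw

end Ctx

end Cfsg.Agent.H890.SpCore
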