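import Mathlib

/-!
Core of S5712 (helper890): subgroups of a symplectic group in characteristic two containing a large
subgroup of `O₂` of the stabiliser of a vector.

`Ctx` : a symplectic space `(V, B)` over a finite field of characteristic two and a subgroup `L` of its
isometry group.  `Has a w c` : `L` contains `v ↦ v + B v a • w + B v w • a + (c * B v a) • a`.
`A` : the set of nonzero `a` such that for every `w ⊥ a` some `Has a w c` holds.
-/

set_option autoImplicit false

namespace Cfsg.Agent.H890.SpCore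

/-- A symplectic space in characteristic two with a group of isometries. -/
structure Ctx (F V : Type*) [Field F] [AddCommGroup V] [Module F V] where
  B : LinearMap.BilinForm F V
  alt : ∀ v, B v v = 0
  nd : ∀ x, (∀ y, B x y = 0) → x = 0
  L : Subgroup (V ≃ₗ[F] V)
  inv : ∀ g ∈ L, ∀ u v, B (g u) (g v) = B u v
  two : (2 : F) = 0

variable {F V : Type*} [Field F] [AddCommGroup V] [Module F V]

namespace Ctx

variable (S : Ctx F V)

include S in
theorem neg_eq (x : F) : -x = x := by
  linear_combination (-x) * S.two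

include S in
theorem add_self (x : F) : x + x = 0 := by
  linear_combination x * S.two

include S in
theorem vadd_self (v : V) : v + v = 0 := by
  have : v + v = (2 : F) • v := by rw [two_smul]
  rw [this, S.two, zero_smul]

theorem symm (u v : V) : S.B u v = S.B v u := by
  have h := S.alt (u + v)
  simp only [map_add, LinearMap.add_apply, S.alt, zero_add, add_zero] at h
  have h2 : S.B u v + S.B v u = 0 := by linear_combination h
  have := eq_neg_of_add_eq_zero_left h2
  rw [this, S.neg_eq]

theorem add_left (u u' v : V) : S.B (u + u') v = S.B u v + S.B u' v := by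
  rw [map_add, LinearMap.add_apply]

theorem add_right (u v v' : V) : S.B u (v + v') = S.B u v + S.B u v' := by
  rw [map_add]

theorem smul_left (c : F) (u v : V) : S.B (c • u) v = c * S.B u v := by
  rw [map_smul, LinearMap.smul_apply, smul_eq_mul]

theorem smul_right (c : F) (u v : V) : S.B u (c • v) = c * S.B u v := by
  rw [map_smul, smul_eq_mul]

include S in
theorem eq_of_add_zero {x y : F} (h : x + y = 0) : x = y := by
  have := eq_neg_of_add_eq_zero_left h
  rw [this, S.neg_eq]

include S in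
theorem veq_of_add_zero {x y : V} (h : x + y = 0) : x = y := by
  have h2 := S.vadd_self y
  rw [eq_neg_of_add_eq_zero_left h]
  exact neg_eq_of_add_eq_zero_left h2

/-- `L` contains the map `v ↦ v + B v a • w + B v w • a + (c * B v a) • a`. -/
def Has (a w : V) (c : F) : Prop :=
  ∃ g ∈ S.L, ∀ v, g v = v + S.B v a • w + S.B v w • a + (c * S.B v a) • a

theorem Has.conj {a w : V} {c : F} (h : S.Has a w c) {g : V ≃ₗ[F] V} (hg : g ∈ S.L) :
    S.Has (g a) (g w) c := by
  obtain ⟨x, hx, hxv⟩ := h
  refine ⟨g * x * g⁻¹, S.L.mul_mem (S.L.mul_mem hg hx) (S.L.inv_mem hg), fun v => ?_⟩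
  obtain ⟨v, rfl⟩ := g.surjective v
  have h1 : (g * x * g⁻¹) (g v) = g (x v) := by
    show g (x (g.symm (g v))) = _
    rw [LinearEquiv.symm_apply_apply]
  rw [h1, hxv, S.inv g hg, S.inv g hg]
  simp only [map_add, map_smul]

theorem Has.mul {a w w' : V} {c c' : F} (haw : S.B a w = 0) (haw' : S.B a w' = 0)
    (h : S.Has a w c) (h' : S.Has a w' c') : S.Has a (w + w') (c + c' + S.B w w') := by
  obtain ⟨x, hx, hxv⟩ := h
  obtain ⟨y, hy, hyv⟩ := h'
  refine ⟨x * y, S.L.mul_mem hx hy, fun v => ?_⟩
  show x (y v) = _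
  have hwa : S.B w a = 0 := by rw [S.symm, haw]
  have hwa' : S.B w' a = 0 := by rw [S.symm, haw']
  have hs : S.B w' w = S.B w w' := S.symm _ _
  rw [hxv, hyv]
  simp only [S.add_left, S.add_right, S.smul_left, S.alt, haw, hwa', hs]
  module

theorem Has.smul_iff {a w : V} {c l : F} :
    S.Has (l • a) w c ↔ S.Has a (l • w) (l ^ 2 * c) := by
  constructor
  · rintro ⟨x, hx, hxv⟩
    refine ⟨x, hx, fun v => ?_⟩
    rw [hxv]
    simp only [S.smul_right]
    module
  · rintro ⟨x, hx, hxv⟩
    refine ⟨x, hx, fun v => ?_⟩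
    rw [hxv]
    simp only [S.smul_right]
    module

theorem Has.zero (a : V) : S.Has a 0 0 := by
  refine ⟨1, S.L.one_mem, fun v => ?_⟩
  show v = _
  simp

theorem Has.add_smul {a w : V} {c : F} (l : F) (h : S.Has a w c) : S.Has a (w + l • a) c := by
  obtain ⟨x, hx, hxv⟩ := h
  refine ⟨x, hx, fun v => ?_⟩
  rw [hxv, S.add_right, S.smul_right]
  have h2 : (2 : F) • a = 0 := by rw [S.two, zero_smul]
  have e : v + S.B v a • (w + l • a) + (S.B v w + l * S.B v a) • a + (c * S.B v a) • a
      = v + S.B v a • w + S.B v w • a + (c * S.B v a) • a + (l * S.B v a) • ((2 : F) • a) := by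
    module
  rw [e, h2, smul_zero, add_zero]

/-- Uniqueness of `c` up to transvections. -/
theorem Has.diff {a w : V} {c c' : F} (haw : S.B a w = 0) (h : S.Has a w c) (h' : S.Has a w c') :
    S.Has a 0 (c + c') := by
  have := h.mul S haw haw h'
  rwa [S.vadd_self, S.alt, add_zero] at this

/-- The good vectors. -/
def A (a : V) : Prop := a ≠ 0 ∧ ∀ w, S.B a w = 0 → ∃ c, S.Has a w c

theorem A.map {a : V} (h : S.A a) {g : V ≃ₗ[F] V} (hg : g ∈ S.L) : S.A (g a) := by
  refine ⟨fun h0 => h.1 ?_, fun w hw => ?_⟩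
  · exact (LinearEquiv.map_eq_zero_iff g).1 h0
  · obtain ⟨w, rfl⟩ := g.surjective w
    rw [S.inv g hg] at hw
    obtain ⟨c, hc⟩ := h.2 w hw
    exact ⟨c, hc.conj S hg⟩

theorem A.smul {a : V} (h : S.A a) {l : F} (hl : l ≠ 0) : S.A (l • a) := by
  refine ⟨smul_ne_zero hl h.1, fun w hw => ?_⟩
  rw [S.smul_left] at hw
  have hw' : S.B a w = 0 := (mul_eq_zero.1 hw).resolve_left hl
  obtain ⟨c, hc⟩ := h.2 (l • w) (by rw [S.smul_right, hw', mul_zero])
  refine ⟨(l ^ 2)⁻¹ * c, ?_⟩
  rw [Has.smul_iff]
  rwa [← mul_assoc, mul_inv_cancel₀ (pow_ne_zero 2 hl), one_mul]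

theorem A.smul_iff {a : V} {l : F} (hl : l ≠ 0) : S.A (l • a) ↔ S.A a := by
  refine ⟨fun h => ?_, fun h => h.smul S hl⟩
  have := h.smul S (inv_ne_zero hl)
  rwa [smul_smul, inv_mul_cancel₀ hl, one_smul] at this

/-- Moving a vector of `A` by an element of `X_a`. -/
theorem A.move {a w : V} {c : F} (h : S.Has a w c) {v : V} (hv : S.A v) :
    S.A (v + S.B v a • w + S.B v w • a + (c * S.B v a) • a) := by
  obtain ⟨x, hx, hxv⟩ := h
  rw [← hxv]
  exact hv.map S hx

/-! ### Linear algebra of the form -/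

theorem exists_ne {x : V} (hx : x ≠ 0) : ∃ y, S.B x y ≠ 0 := by
  by_contra h
  push Not at h
  exact hx (S.nd x h)

theorem exists_eq {x : V} (hx : x ≠ 0) (c : F) : ∃ y, S.B x y = c := by
  obtain ⟨y, hy⟩ := S.exists_ne hx
  refine ⟨(c * (S.B x y)⁻¹) • y, ?_⟩
  rw [S.smul_right, mul_assoc, inv_mul_cancel₀ hy, mul_one]

/-- two independent linear conditions -/
theorem exists_eq_two {x y : V} (hx : x ≠ 0) (hy : ∀ l : F, y ≠ l • x) (c d : F) :
    ∃ z, S.B x z = c ∧ S.B y z = d := by
  -- first a vector perpendicular to `x` and not to `y`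
  have h1 : ∃ z, S.B x z = 0 ∧ S.B y z ≠ 0 := by
    by_contra h
    push Not at h
    obtain ⟨u, hu⟩ := S.exists_eq hx 1
    apply hy (S.B y u)
    have h2 : y + -(S.B y u • x) = 0 := by
      apply S.nd
      intro z
      have h3 := h (z + (-(S.B x z)) • u) (by rw [S.add_right, S.smul_right, hu]; ring)
      rw [S.add_right, S.smul_right] at h3
      rw [S.add_left, map_neg, LinearMap.neg_apply, S.smul_left]
      linear_combination h3
    rw [← sub_eq_add_neg, sub_eq_zero] at h2
    exact h2
  obtain ⟨z, hz, hz'⟩ := h1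
  obtain ⟨u, hu⟩ := S.exists_eq hx c
  refine ⟨u + ((d - S.B y u) * (S.B y z)⁻¹) • z, ?_, ?_⟩
  · rw [S.add_right, S.smul_right, hu, hz]; ring
  · rw [S.add_right, S.smul_right, mul_assoc, inv_mul_cancel₀ hz']; ring

/-- For a nonzero element of the hyperplane orthogonal to `a`: independence from `B`. -/
theorem ne_smul_of_B {a x z : V} (h1 : S.B a z = 0) (h2 : S.B x z ≠ 0) (l : F) : x ≠ l • a := by
  rintro rfl
  apply h2
  rw [S.smul_left, h1, mul_zero]

/-! ### Perpendicular pairs in `A` -/

/-- If `a, b ∈ A` are perpendicular and independent, `a + l b ∈ A`. -/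
theorem A.add_of_perp {a b : V} (ha : S.A a) (hb : S.A b) (hab : S.B a b = 0)
    (hind : ∀ l : F, a ≠ l • b) (l : F) : S.A (a + l • b) := by
  obtain ⟨w, hw1, hw2⟩ := S.exists_eq_two hb.1 hind 0 l
  obtain ⟨c, hc⟩ := hb.2 w hw1
  have := ha.move S hc
  rwa [hab, hw2, zero_smul, mul_zero, zero_smul, add_zero, add_zero] at this

/-- If `a, b ∈ A` are perpendicular and independent, every nonzero vector of their span is in `A`. -/
theorem A.span {a b : V} (ha : S.A a) (hb : S.A b) (hab : S.B a b = 0)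
    (hind : ∀ l : F, a ≠ l • b) {k l : F} (h : k • a + l • b ≠ 0) : S.A (k • a + l • b) := by
  by_cases hk : k = 0
  · subst hk
    rw [zero_smul, zero_add] at h ⊢
    refine hb.smul S ?_
    rintro rfl
    exact h (zero_smul _ _)
  · have h1 := (ha.add_of_perp S hb hab hind (k⁻¹ * l)).smul S hk
    rwa [smul_add, smul_smul, ← mul_assoc, mul_inv_cancel₀ hk, one_mul] at h1

omit S in
/-- symmetric version of independence -/
theorem ind_symm {a b : V} (hb : b ≠ 0) (hind : ∀ l : F, a ≠ l • b) (l : F) : b ≠ l • a := by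
  rintro h
  by_cases hl : l = 0
  · subst hl
    exact hb (by rw [h, zero_smul])
  · apply hind l⁻¹
    rw [h, smul_smul, inv_mul_cancel₀ hl, one_smul]

end Ctx

end Cfsg.Agent.H890.SpCore
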