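import Cfsg.Agent.H890.SpSix

/-!
S5712 (helper890): a normal 2-subgroup of the stabiliser of `a` in the isometry group lies in `Qa a`.
-/

set_option autoImplicit false

namespace Cfsg.Agent.H890.SpCore

open Module

variable {F V : Type*} [Field F] [AddCommGroup V] [Module F V]

namespace Ctx

variable (S : Ctx F V)

/-- the transvection map -/
def tvLin (z : V) : V →ₗ[F] V := LinearMap.id + (LinearMap.flip S.B z).smulRight z

theorem tvLin_apply (z v : V) : S.tvLin z v = v + S.B v z • z := rfl

theorem tvLin_tvLin (z v : V) : S.tvLin z (S.tvLin z v) = v := by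
  rw [tvLin_apply, tvLin_apply, S.add_left, S.smul_left, S.alt, mul_zero, add_zero, add_assoc,
    S.vadd_self, add_zero]

/-- the transvection `v ↦ v + B v z • z` -/
def tv (z : V) : V ≃ₗ[F] V :=
  LinearEquiv.ofLinearMap (S.tvLin z) (S.tvLin z) (LinearMap.ext (S.tvLin_tvLin z))
    (LinearMap.ext (S.tvLin_tvLin z))

theorem tv_apply (z v : V) : S.tv z v = v + S.B v z • z := rfl

theorem tv_inv_apply (z v : V) : (S.tv z)⁻¹ v = v + S.B v z • z := rfl

theorem tv_isom (z u v : V) : S.B (S.tv z u) (S.tv z v) = S.B u v := by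
  rw [tv_apply, tv_apply]
  simp only [S.add_left, S.add_right, S.smul_left, S.smul_right, S.alt]
  rw [S.symm z v]
  linear_combination (S.B u z * S.B v z) * S.two

/-- `t_u t_z` with `B u z ≠ 0` is not a 2-element. -/
theorem not_two_elt {u z : V} (h : S.B u z ≠ 0) (k : ℕ) (s : V ≃ₗ[F] V)
    (hs : ∀ v, s v = v + S.B v z • z + S.B v u • u + (S.B v z * S.B z u) • u)
    (hk : s ^ (2 ^ k) = 1) : False := by
  have hzu : S.B z u ≠ 0 := by rwa [S.symm]
  have hz0 : z ≠ 0 := by
    rintro rfl
    exact h (map_zero _)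
  have : Nontrivial V := ⟨⟨z, 0, hz0⟩⟩
  have hc : CharP F 2 := CharTwo.of_one_ne_zero_of_two_eq_zero one_ne_zero S.two
  have hc' : CharP (Module.End F V) 2 := charP_of_injective_algebraMap (algebraMap F (Module.End F V)).injective 2
  -- `(s - 1)^(2^k) = 0`
  have h1 : (s.toLinearMap - 1 : Module.End F V) ^ (2 ^ k) = 0 := by
    rw [sub_pow_char_pow_of_commute 2 k (Commute.one_right _), one_pow]
    have e : ∀ m : ℕ, (s.toLinearMap : Module.End F V) ^ m = ((s ^ m : V ≃ₗ[F] V)).toLinearMap := by
      intro m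
      induction m with
      | zero => rfl
      | succ m ih => rw [pow_succ, pow_succ, ih]; rfl
    rw [e, hk]
    exact sub_self _
  -- but `s - 1` is injective on the plane
  have h2 : ∀ m : ℕ, ∃ x y : F, (x ≠ 0 ∨ y ≠ 0) ∧
      ((s.toLinearMap - 1 : Module.End F V) ^ m) z = x • z + y • u := by
    intro m
    induction m with
    | zero => exact ⟨1, 0, Or.inl one_ne_zero, by simp⟩
    | succ m ih =>
      obtain ⟨x, y, hxy, hm⟩ := ih
      refine ⟨y * S.B u z, x * S.B z u + y * S.B u z * S.B z u, ?_, ?_⟩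
      · by_cases hy : y = 0
        · subst hy
          right
          have hx : x ≠ 0 := by
            rcases hxy with hx | hy
            · exact hx
            · exact absurd rfl hy
          rw [zero_mul, zero_mul, add_zero]
          exact mul_ne_zero hx hzu
        · exact Or.inl (mul_ne_zero hy h)
      · rw [pow_succ', Module.End.mul_apply, hm]
        show s (x • z + y • u) - (x • z + y • u) = _
        rw [hs]
        simp only [S.add_left, S.smul_left, S.alt]
        module
  obtain ⟨x, y, hxy, hm⟩ := h2 (2 ^ k)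
  rw [h1, LinearMap.zero_apply] at hm
  have h3 : S.B u (x • z + y • u) = 0 := by rw [← hm, map_zero]
  have h4 : S.B z (x • z + y • u) = 0 := by rw [← hm, map_zero]
  rw [S.add_right, S.smul_right, S.smul_right, S.alt, mul_zero, add_zero] at h3
  rw [S.add_right, S.smul_right, S.smul_right, S.alt, mul_zero, zero_add] at h4
  rcases hxy with hx | hy
  · exact mul_ne_zero hx h h3
  · exact mul_ne_zero hy hzu h4

variable (a : V) (N : Subgroup (V ≃ₗ[F] V))

/-- **A normal 2-subgroup of the stabiliser of `a` in the isometry group lies in `Qa a`.** -/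
theorem le_Qa (ha : a ≠ 0) (hiso : ∀ g ∈ N, ∀ u v, S.B (g u) (g v) = S.B u v)
    (hfix : ∀ g ∈ N, g a = a) (h2 : ∀ g ∈ N, ∃ k : ℕ, g ^ (2 ^ k) = 1)
    (hnorm : ∀ t : V ≃ₗ[F] V, (∀ u v, S.B (t u) (t v) = S.B u v) → t a = a → ∀ g ∈ N,
      t * g * t⁻¹ ∈ N) : ∀ g ∈ N, g ∈ S.Qa a := by
  -- the commutator with a transvection
  have hcomm : ∀ g ∈ N, ∀ z, S.B z a = 0 → g * (S.tv z * g⁻¹ * (S.tv z)⁻¹) ∈ N := by
    intro g hg z hz
    refine N.mul_mem hg (hnorm _ (S.tv_isom z) ?_ _ (N.inv_mem hg))
    rw [tv_apply, S.symm a z, hz, zero_smul, add_zero]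
  have hcomm' : ∀ g ∈ N, ∀ z v, (g * (S.tv z * g⁻¹ * (S.tv z)⁻¹)) v =
      v + S.B v z • z + S.B v (g z) • g z + (S.B v z * S.B z (g z)) • g z := by
    intro g hg z v
    show g (S.tv z (g⁻¹ ((S.tv z)⁻¹ v))) = _
    rw [tv_inv_apply, tv_apply, map_add g]
    have h3 : ∀ x, g (g⁻¹ x) = x := fun x => g.apply_symm_apply x
    have h4 : ∀ x y, S.B (g⁻¹ x) y = S.B x (g y) := by
      intro x y
      rw [← hiso g hg, h3]
    rw [h3, map_smul, h4, S.add_left, S.smul_left]
    module
  -- step 1
  have hone : ∀ g ∈ N, ∀ z, S.B z a = 0 → S.B (g z) z = 0 := by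
    intro g hg z hz
    by_contra h0
    obtain ⟨k, hk⟩ := h2 _ (hcomm g hg z hz)
    exact S.not_two_elt h0 k _ (hcomm' g hg z) hk
  -- step 2
  have htwo : ∀ g ∈ N, ∀ z, S.B z a = 0 → ∃ l : F, g z = z + l • a := by
    intro g hg z hz
    have h1 : ∀ y, S.B y a = 0 → S.B y (z + g z) = 0 := by
      intro y hy
      have h3 := hone _ (hcomm g hg z hz) y hy
      rw [hcomm' g hg z y] at h3
      simp only [S.add_left, S.smul_left, S.alt, S.symm z (g z), hone g hg z hz] at h3
      rw [S.symm z y, S.symm (g z) y] at h3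
      have h4 : (S.B y (z + g z)) ^ 2 = 0 := by
        rw [S.add_right]
        linear_combination h3 + (S.B y z * S.B y (g z)) * S.two
      exact pow_eq_zero_iff two_ne_zero |>.1 h4
    by_contra hcon
    push Not at hcon
    have h5 : ∀ l : F, z + g z ≠ l • a := by
      intro l hl
      apply hcon l
      rw [← hl, ← add_assoc, S.vadd_self, zero_add]
    obtain ⟨y, hy1, hy2⟩ := S.exists_eq_two ha h5 0 1
    have := h1 y (by rw [S.symm]; exact hy1)
    rw [S.symm, hy2] at this
    exact one_ne_zero this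
  -- conclusion
  intro g hg
  obtain ⟨b, hab⟩ := S.exists_eq ha 1
  have hba : S.B b a = 1 := by rw [S.symm, hab]
  have hagb : S.B a (g b) = 1 := by
    nth_rewrite 1 [← hfix g hg]
    rw [hiso g hg, hab]
  refine ⟨g b + b, S.B b (g b), ?_, ?_⟩
  · rw [S.add_right, hagb, hab, S.add_self]
  · intro v
    have h6 : S.B (v + S.B v a • b) a = 0 := by
      rw [S.add_left, S.smul_left, hba, mul_one, S.add_self]
    obtain ⟨l, hl⟩ := htwo g hg _ h6
    have h7 : S.B (v + S.B v a • b) (g b + b) = l := by
      have h8 := hiso g hg (v + S.B v a • b) b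
      rw [hl, S.add_left, S.smul_left, hagb, mul_one] at h8
      rw [S.add_right]
      have : S.B (v + S.B v a • b) (g b) = S.B (v + S.B v a • b) b - l := by
        linear_combination h8
      rw [this]
      linear_combination (S.B (v + S.B v a • b) b - l) * S.two
    rw [S.add_left, S.smul_left, S.add_right, S.add_right, S.alt] at h7
    rw [map_add, map_smul] at hl
    have h9 : g v = v + S.B v a • b + l • a + S.B v a • g b := by
      have : g v = (g v + S.B v a • g b) + S.B v a • g b - (S.B v a • g b + S.B v a • g b) := by abel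
      rw [this, hl, S.vadd_self, sub_zero]
    rw [h9, ← h7, S.add_right]
    have e : ∀ x : F, -x = x := S.neg_eq
    module

end Ctx

end Cfsg.Agent.H890.SpCore
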